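import Cfsg.Agent.H311.HexCard
import Cfsg.Agent.H311.Red
import Cfsg.Agent.LieClassical.SLGen
import Mathlib.GroupTheory.SpecificGroups.Quaternion

/-!
# `G₂(q)` and `³D₄(q)`, `q` odd, have no involution centralizing `L₃(3)`
-/

set_option autoImplicit false

namespace Cfsg.Agent.H311

open Matrix Subgroup Cfsg.Agent.GTwoOdd Cfsg.Agent.ClassicalGeometry
open Cfsg.Agent.Cit.HexBase (HexGrp fx)

theorem perfect_mem' {G A : Type*} [Group G] [Group A] (hA : commutator A = ⊤) (f : A →* G) {H H' : Subgroup G}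
    (h : ∀ a, f a ∈ H) (hc : ∀ x ∈ H, ∀ y ∈ H, x * y * x⁻¹ * y⁻¹ ∈ H') (a : A) : f a ∈ H' := by
  have h1 : commutator A ≤ H'.comap f := by
    rw [commutator_def, commutator_le]
    intro x _ y _
    change f (x * y * x⁻¹ * y⁻¹) ∈ H'
    rw [map_mul, map_mul, map_mul, map_inv, map_inv]
    exact hc _ (h x) _ (h y)
  rw [hA] at h1
  exact h1 (mem_top a)

namespace Duo

section

variable {G : Type*} [Group G] {j : G} {F₁ F₂ : Type*} [Field F₁] [Field F₂]

/-- no quaternion group modulo the second factor -/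
theorem no_q8_aux (D : Duo j F₁ F₂) {A : Type*} [Group A] (φ : A →* G) (hY : ∀ a, φ a ∈ D.Y)
    (hN : ∀ a, φ a ∈ D.e2.range → a = 1) {x y : A} (hyx : y * x * y⁻¹ = x⁻¹) (hxy : x * x = y * y)
    (hx : x * x ≠ 1) : False := by
  obtain ⟨a, b, hab⟩ := hY x
  obtain ⟨c, d, hcd⟩ := hY y
  have h1 : D.e1 (c * a * c⁻¹) * D.e2 (d * b * d⁻¹) = D.e1 a⁻¹ * D.e2 b⁻¹ := by
    rw [← D.conj_conj, hab, hcd, ← D.mul_inv, hab, ← map_inv, ← map_mul, ← map_mul, hyx, map_inv]
  have h2 : D.e1 (a * a) * D.e2 (b * b) = D.e1 (c * c) * D.e2 (d * d) := by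
    rw [← D.mul_mul, ← D.mul_mul, hab, hcd, ← map_mul, ← map_mul, hxy]
  have h3 : a * a ≠ 1 := by
    intro h
    apply hx
    apply hN
    rw [map_mul, ← hab, D.mul_mul, h, map_one, one_mul]
    exact ⟨_, rfl⟩
  have h4 : a * a ≠ -1 := by
    intro h
    apply hx
    apply hN
    have e : D.e1 (-1) = D.e2 (-1) := D.neg1.trans D.neg2.symm
    rw [map_mul, ← hab, D.mul_mul, h, e, ← map_mul]
    exact ⟨_, rfl⟩
  have h5 : c * (a * a) = (a * a) * c := by
    rcases D.mul_eq_mul h2 with ⟨h, -⟩ | ⟨h, -⟩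
    · rw [h, mul_assoc]
    · rw [h, mul_neg, neg_mul, mul_assoc]
  have h6 : c * a = a * c := sl_comm_of_comm h3 h4 h5 (by rw [mul_assoc])
  have h7 : c * a * c⁻¹ = a := by rw [h6, mul_inv_cancel_right]
  rcases D.mul_eq_mul h1 with ⟨h, -⟩ | ⟨h, -⟩
  · rw [h7] at h
    apply h3
    nth_rewrite 1 [h]
    exact inv_mul_cancel a
  · rw [h7] at h
    apply h4
    nth_rewrite 1 [h]
    rw [neg_mul, inv_mul_cancel]

theorem range2_conj (D : Duo j F₁ F₂) {y g : G} (hy : y ∈ D.Y) (hg : g ∈ D.e2.range) : y * g * y⁻¹ ∈ D.e2.range := by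
  obtain ⟨a, b, rfl⟩ := hy
  obtain ⟨c, rfl⟩ := hg
  refine ⟨b * c * b⁻¹, ?_⟩
  have := D.conj_conj a 1 b c
  rw [map_one, one_mul] at this
  rw [this]; simp

/-- simple groups with quaternion subgroups are not in `Y` -/
theorem no_q8 (D : Duo j F₁ F₂) {A : Type*} [Group A] [IsSimpleGroup A] (φ : A →* G) (hφ : Function.Injective φ)
    (hY : ∀ a, φ a ∈ D.Y) {x y : A} (hyx : y * x * y⁻¹ = x⁻¹) (hxy : x * x = y * y)
    (hx : x * x ≠ 1) : False := by
  have hN2 : (D.e2.range.comap φ).Normal := ⟨fun a ha b => by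
    change φ (b * a * b⁻¹) ∈ D.e2.range
    rw [map_mul, map_mul, map_inv]
    exact D.range2_conj (hY b) ha⟩
  rcases hN2.eq_bot_or_eq_top with h | h
  · refine D.no_q8_aux φ hY (fun a ha => ?_) hyx hxy hx
    have : a ∈ D.e2.range.comap φ := ha
    rwa [h, mem_bot] at this
  · have hN1 : (D.e1.range.comap φ).Normal := ⟨fun a ha b => by
      change φ (b * a * b⁻¹) ∈ D.e1.range
      rw [map_mul, map_mul, map_inv]
      exact D.sw.range2_conj (by rw [Y_sw]; exact hY b) ha⟩
    rcases hN1.eq_bot_or_eq_top with h' | h'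
    · refine D.sw.no_q8_aux φ (fun a => by rw [Y_sw]; exact hY a) (fun a ha => ?_) hyx hxy hx
      have : a ∈ D.e1.range.comap φ := ha
      rwa [h', mem_bot] at this
    · have h1 : φ (x * x) ∈ D.e1.range := by
        have : x * x ∈ D.e1.range.comap φ := by rw [h']; trivial
        exact this
      -- all elements are in `{1, j}`
      have key : ∀ a : A, φ a = 1 ∨ φ a = j := by
        intro a
        have h1 : a ∈ D.e1.range.comap φ := by rw [h']; trivial
        have h2 : a ∈ D.e2.range.comap φ := by rw [h]; trivial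
        obtain ⟨u, hu⟩ := h1
        obtain ⟨v, hv⟩ := h2
        rcases D.eq_cases (hu.trans hv.symm) with ⟨rfl, -⟩ | ⟨rfl, -⟩
        · left; rw [← hu, map_one]
        · right; rw [← hu, D.neg1]
      apply hx
      apply hφ
      rw [map_mul, map_one]
      rcases key x with h | h <;> rw [h]
      · simp
      · exact D.jj

end

end Duo

section psl

variable {F : Type*} [Field F]

/-- the quaternion pair in `SL₃(3)` -/
def qx (F : Type*) [Field F] : Matrix.SpecialLinearGroup (Fin 3) F :=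
  ⟨!![0, 1, 0; -1, 0, 0; 0, 0, 1], by simp [Matrix.det_fin_three]⟩

/-- the quaternion pair in `SL₃(3)` -/
def qy (h3 : (3 : F) = 0) : Matrix.SpecialLinearGroup (Fin 3) F :=
  ⟨!![1, 1, 0; 1, -1, 0; 0, 0, 1], by
    simp [Matrix.det_fin_three]
    linear_combination -h3⟩

theorem q_xy (h3 : (3 : F) = 0) : qx F * qx F = qy h3 * qy h3 := by
  apply Subtype.ext
  change (qx F).1 * (qx F).1 = (qy h3).1 * (qy h3).1
  simp only [qx, qy, Matrix.mul_fin_three]
  ext i k
  fin_cases i <;> fin_cases k <;> simp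
  · linear_combination -h3
  · linear_combination -h3

theorem q_yx (h3 : (3 : F) = 0) : qx F * qy h3 * qx F = qy h3 := by
  apply Subtype.ext
  change (qx F).1 * (qy h3).1 * (qx F).1 = (qy h3).1
  simp only [qx, qy, Matrix.mul_fin_three]
  ext i k
  fin_cases i <;> fin_cases k <;> simp

theorem q_ne (h2 : (2 : F) ≠ 0) : qx F * qx F ∉ center (Matrix.SpecialLinearGroup (Fin 3) F) := by
  intro h
  rw [Matrix.SpecialLinearGroup.mem_center_iff] at h
  obtain ⟨r, -, hr⟩ := h
  have h1 := congrFun (congrFun hr 0) 0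
  have h3 := congrFun (congrFun hr 2) 2
  change r = ((qx F).1 * (qx F).1) 0 0 at h1
  change r = ((qx F).1 * (qx F).1) 2 2 at h3
  simp [qx, Matrix.mul_fin_three] at h1 h3
  apply h2
  linear_combination h1 - h3

/-- `L₃(3)` contains a quaternion group of order `8` -/
theorem psl_q8 (h3 : (3 : F) = 0) (h2 : (2 : F) ≠ 0) : ∃ x y : Matrix.ProjectiveSpecialLinearGroup (Fin 3) F,
    y * x * y⁻¹ = x⁻¹ ∧ x * x = y * y ∧ x * x ≠ 1 := by
  refine ⟨QuotientGroup.mk (qx F), QuotientGroup.mk (qy h3), ?_, ?_, ?_⟩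
  · rw [mul_inv_eq_iff_eq_mul]
    rw [eq_inv_mul_iff_mul_eq, ← mul_assoc, ← QuotientGroup.mk_mul, ← QuotientGroup.mk_mul, q_yx]
  · rw [← QuotientGroup.mk_mul, ← QuotientGroup.mk_mul, q_xy]
  · rw [← QuotientGroup.mk_mul]
    intro h
    exact q_ne h2 ((QuotientGroup.eq_one_iff _).1 h)

end psl

section hex

variable {E : Type*} [Field E] [Finite E] {σ : E ≃+* E} {L : Type*} [Group L] [Finite L]

/-- no involution centralizes a simple group with quaternion subgroups -/
theorem hex_no_q8 (c : HexGrp σ L) (h2 : (2 : E) ≠ 0) {t : L} (ht : t * t = 1) (ht1 : t ≠ 1) {A : Type*} [Group A]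
    [IsSimpleGroup A] (φ : A →* L) (hφ : Function.Injective φ) (ha : ∀ a, φ a * t = t * φ a) {x y : A}
    (hyx : y * x * y⁻¹ = x⁻¹) (hxy : x * x = y * y) (hx : x * x ≠ 1) : False := by
  obtain ⟨g, hg⟩ := isConj_iff.1 (c.isConj_invol h2 ht ht1 c.z_sq (c.z_ne h2))
  let D := hexDuo c h2
  let ψ : A →* L := (MulAut.conj g).toMonoidHom.comp φ
  have hψ : Function.Injective ψ := (MulAut.conj g).injective.comp hφ
  have hψz : ∀ a, ψ a * c.z = c.z * ψ a := by
    intro a
    change (g * φ a * g⁻¹) * c.z = c.z * (g * φ a * g⁻¹)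
    have e1 : (g * φ a * g⁻¹) * c.z = g * (φ a * t) * g⁻¹ := by rw [← hg]; group
    rw [e1, ha, ← hg]; group
  have hA : commutator A = ⊤ := by
    have hn : (commutator A).Normal := inferInstance
    rcases hn.eq_bot_or_eq_top with h | h
    · exfalso
      have h3 : y * x * y⁻¹ * x⁻¹ ∈ commutator A := by
        have := commutator_mem_commutator (mem_top y) (mem_top x)
        exact this
      rw [h, mem_bot, hyx] at h3
      apply hx
      rw [← _root_.mul_inv_rev, inv_eq_one] at h3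
      exact h3
    · exact h
  have hY : ∀ a, ψ a ∈ D.Y := by
    refine perfect_mem' hA ψ (H := centralizer ({c.z} : Set L)) (fun a => mem_centralizer_singleton_iff.2 (hψz a)) ?_
    have h5 := hex_card c h2
    have h6 : Nat.card D.Y * 2 = Nat.card (SL2 E) * Nat.card (SL2 ↥(fx σ)) := D.card_Y h2
    have h7 := Lib.SylowNormalInf.card_mul_relIndex D.Y (centralizer ({c.z} : Set L)) D.Y_le
    rw [← h7, ← h6] at h5
    have h8 : D.Y.relIndex (centralizer ({c.z} : Set L)) ≤ 2 := Nat.le_of_mul_le_mul_left h5 Nat.card_pos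
    intro u hu v hv
    have h9 : D.Y.relIndex (centralizer ({c.z} : Set L)) ≠ 0 := by
      intro h
      rw [h, mul_zero] at h7
      have : 0 < Nat.card (centralizer ({c.z} : Set L)) := Nat.card_pos
      omega
    have h10 : D.Y.relIndex (centralizer ({c.z} : Set L)) = 1 ∨ D.Y.relIndex (centralizer ({c.z} : Set L)) = 2 := by
      omega
    rcases h10 with h | h
    · rw [relIndex_eq_one] at h
      exact h (mul_mem (mul_mem (mul_mem hu hv) (inv_mem hu)) (inv_mem hv))
    · have hm := fun a b => Subgroup.mul_mem_iff_of_index_two (H := D.Y.subgroupOf (centralizer ({c.z} : Set L))) h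
        (a := a) (b := b)
      have k : (⟨u, hu⟩ * ⟨v, hv⟩ * (⟨u, hu⟩ : centralizer ({c.z} : Set L))⁻¹ * (⟨v, hv⟩ : centralizer ({c.z} : Set L))⁻¹) ∈
          D.Y.subgroupOf (centralizer ({c.z} : Set L)) := by
        rw [hm, hm, hm, inv_mem_iff, inv_mem_iff]
        tauto
      exact k
  exact D.no_q8 ψ hψ hY hyx hxy hx

end hex

theorem three_two {F : Type*} [Field F] [Fintype F] (hF : Fintype.card F = 3) : (3 : F) = 0 ∧ (2 : F) ≠ 0 := by
  have h : (3 : F) = 0 := by
    have := FiniteField.cast_card_eq_zero F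
    rw [hF] at this
    exact_mod_cast this
  refine ⟨h, fun h2 => ?_⟩
  have : (1 : F) = 0 := by linear_combination h - h2
  exact one_ne_zero this

/-- an involution in a quaternion group of order `8` -/
theorem exists_invol {D : Type*} [Group D] (f : D ≃* QuaternionGroup 2) : ∃ t : D, t * t = 1 ∧ t ≠ 1 := by
  refine ⟨f.symm (QuaternionGroup.a 2), ?_, ?_⟩
  · rw [← map_mul, map_eq_one_iff _ f.symm.injective]
    decide
  · rw [Ne, map_eq_one_iff _ f.symm.injective]
    decide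

theorem no_aux {E : Type*} [Field E] [Finite E] {σ : E ≃+* E} {L : Type*} [Group L] [Finite L] (c : HexGrp σ L)
    (h2 : (2 : E) ≠ 0) {F : Type*} [Field F] [Fintype F] (hF : Fintype.card F = 3) (A D : Subgroup L)
    (hAD : ∀ a ∈ A, ∀ d ∈ D, a * d = d * a) (e : ↥A ≃* Matrix.ProjectiveSpecialLinearGroup (Fin 3) F)
    (f : ↥D ≃* QuaternionGroup 2) : False := by
  obtain ⟨h3, h2'⟩ := three_two hF
  obtain ⟨t, ht, ht1⟩ := exists_invol f
  have : IsSimpleGroup (Matrix.ProjectiveSpecialLinearGroup (Fin 3) F) :=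
    LieClassical.SLGen.psl_isSimpleGroup (by simp)
  obtain ⟨x, y, hyx, hxy, hx⟩ := psl_q8 h3 h2'
  refine hex_no_q8 c h2 (t := (t : L)) (congrArg Subtype.val ht) (fun h => ht1 (Subtype.ext h))
    (A.subtype.comp e.symm.toMonoidHom) (A.subtype_injective.comp e.symm.injective) (fun a => ?_) hyx hxy hx
  exact hAD _ (e.symm a).2 _ t.2

/-- `³D₄(q)`, `q` odd, has no subgroup `L₃(3) × Q₈` -/
theorem twD4_no' {K : Type*} [Field K] [Fintype K] (h2 : (2 : K) ≠ 0) {q : ℕ} (hK : Fintype.card K = q ^ 3)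
    {F : Type*} [Field F] [Fintype F] (hF : Fintype.card F = 3) (A D : Subgroup ↥(Cfsg.Lie.twistedD4 K q))
    (hAD : ∀ a ∈ A, ∀ d ∈ D, a * d = d * a) (e : ↥A ≃* Matrix.ProjectiveSpecialLinearGroup (Fin 3) F)
    (f : ↥D ≃* QuaternionGroup 2) : False := by
  obtain ⟨σ, hσ, ⟨c⟩⟩ := Cit.HexD4.exists_d4 hK
  exact no_aux c h2 hF A D hAD e f

theorem two_ne_of_char_three {K : Type*} [Field K] [CharP K 3] : (2 : K) ≠ 0 := by
  intro h2
  have h3 : (3 : K) = 0 := by
    have := CharP.cast_eq_zero K 3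
    exact_mod_cast this
  have : (1 : K) = 0 := by linear_combination h3 - h2
  exact one_ne_zero this

/-- `³D₄(3^f)` has no subgroup `L₃(3) × Q₈` -/
theorem twD4_no {K : Type} [Field K] [Fintype K] [CharP K 3] {q : ℕ} (_hq : IsPrimePow q)
    (hK : Fintype.card K = q ^ 3) {F : Type} [Field F] [Fintype F] (hF : Fintype.card F = 3)
    (A D : Subgroup ↥(Cfsg.Lie.twistedD4 K q)) (hAD : ∀ a ∈ A, ∀ d ∈ D, a * d = d * a)
    (e : ↥A ≃* Matrix.ProjectiveSpecialLinearGroup (Fin 3) F) (f : ↥D ≃* QuaternionGroup 2) : False :=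
  twD4_no' two_ne_of_char_three hK hF A D hAD e f

/-- `G₂(3^f)` has no subgroup `L₃(3) × Q₈` -/
theorem g2_no {K : Type} [Field K] [Fintype K] [CharP K 3] {F : Type} [Field F] [Fintype F]
    (hF : Fintype.card F = 3) (A D : Subgroup ↥(Cfsg.Lie.chevG2.group K)) (hAD : ∀ a ∈ A, ∀ d ∈ D, a * d = d * a)
    (e : ↥A ≃* Matrix.ProjectiveSpecialLinearGroup (Fin 3) F) (f : ↥D ≃* QuaternionGroup 2) : False :=
  no_aux (Cit.HexG2.g2 K two_ne_of_char_three) two_ne_of_char_three hF A D hAD e f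

end Cfsg.Agent.H311
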