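import Cfsg.Agent.LFourR.Mat2

/-!
# Elements of order three of `SL₂(5)` (for S3213)
-/

set_option autoImplicit false

namespace Cfsg.Agent.H311.SLTwoFive

open Matrix Cfsg.Agent.Lib.SL2Mat Cfsg.Agent.Lib.AutSL2 Cfsg.Agent.LFourR.Mat2
open Cfsg.Agent.LFourR.FieldPart (val_mul val_one val_pow coe_mk)

variable {K : Type*} [Field K]

/-- the standard element of order three -/
def u (K : Type*) [Field K] : Matrix.SpecialLinearGroup (Fin 2) K := mk 0 (-1) 1 (-1) (by ring)

theorem u_calc (h5 : (5 : K) = 0) :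
    (u K * (up 1 * u K * (up 1)⁻¹)) * (u K * (up 1 * u K * (up 1)⁻¹)) = up 1 := by
  rw [up_inv]
  apply ext_ent <;> simp [ent_mul, u] <;> first
    | ring1
    | linear_combination (-1 : K) * h5
    | linear_combination h5

theorem up_pow_five (h5 : (5 : K) = 0) : (up 1 : Matrix.SpecialLinearGroup (Fin 2) K) ^ 5 = 1 := by
  rw [up_pow]
  push_cast
  rw [h5, zero_mul, up_zero]

/-- an element of order three of `SL₂(K)`, `|K| = 5` -/
theorem exists_five (h5 : (5 : K) = 0) (x : Matrix.SpecialLinearGroup (Fin 2) K) (hx : orderOf x = 3) :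
    ∃ s, ((x * (s * x * s⁻¹)) * (x * (s * x * s⁻¹))) ^ 5 = 1 ∧ (x * (s * x * s⁻¹)) * (x * (s * x * s⁻¹)) ≠ 1 := by
  have h2 : (2 : K) ≠ 0 := by
    intro h
    have h1 : (1 : K) = 0 := by linear_combination h5 - 2 * h
    exact one_ne_zero h1
  have hx3 : x ^ 3 = 1 := by rw [← hx]; exact pow_orderOf_eq_one x
  have hns : ¬ IsSc x.1 := by
    rintro ⟨c, hc⟩
    have hd := x.2
    rw [hc, det_smul, det_one, Fintype.card_fin, mul_one] at hd
    have hx2 : x ^ 2 = 1 := by
      apply Subtype.ext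
      rw [val_pow, hc, smul_pow, one_pow, hd, one_smul]
      rfl
    have := orderOf_dvd_of_pow_eq_one hx2
    rw [hx] at this
    omega
  have hch : x.1 * x.1 = x.1.trace • x.1 - (1 : Matrix (Fin 2) (Fin 2) K) := by
    have hd := det_fin_two x.1
    rw [x.2] at hd
    rw [trace_fin_two]
    ext i j
    fin_cases i <;> fin_cases j <;> simp [Matrix.mul_apply, Fin.sum_univ_two] <;> first
      | ring1
      | linear_combination -hd
      | linear_combination hd
  have ht : x.1.trace = -1 := by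
    set t := x.1.trace with htdef
    have h3 : x.1 * x.1 * x.1 = 1 := by
      have h := congrArg Subtype.val hx3
      rw [val_pow, pow_succ, pow_two] at h
      exact h
    rw [hch, Matrix.sub_mul, Matrix.smul_mul, hch, Matrix.one_mul, smul_sub, smul_smul] at h3
    have h4 : (t * t - 1) • x.1 = (1 + t) • (1 : Matrix (Fin 2) (Fin 2) K) := by
      rw [sub_smul, add_smul, one_smul, one_smul]
      have h5' : (t * t) • x.1 - x.1 = ((t * t) • x.1 - t • 1 - x.1) + t • (1 : Matrix (Fin 2) (Fin 2) K) := by abel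
      rw [h5', h3]
    by_cases h0 : t * t - 1 = 0
    · rw [h0, zero_smul] at h4
      have h6 := congrArg (fun M : Matrix (Fin 2) (Fin 2) K => M 0 0) h4
      simp at h6
      linear_combination -h6
    · exfalso
      apply hns
      refine ⟨(t * t - 1)⁻¹ * (1 + t), ?_⟩
      rw [mul_smul, ← h4, smul_smul, inv_mul_cancel₀ h0, one_smul]
  obtain ⟨g, hg⟩ := exists_conj_of_same (M := x.1) (M' := (u K).1) hns (by
      rintro ⟨c, hc⟩
      have := congrArg (fun M : Matrix (Fin 2) (Fin 2) K => M 1 0) hc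
      simp [u, coe_mk] at this) (by rw [x.2, (u K).2]) (by rw [ht, u, coe_mk, trace_fin_two]; simp)
  have hxu : conjGL g (u K) = x := (conjGL_eq_iff _ _ _).2 hg.symm
  refine ⟨conjGL g (up 1), ?_⟩
  have e : (x * (conjGL g (up 1) * x * (conjGL g (up 1))⁻¹)) * (x * (conjGL g (up 1) * x * (conjGL g (up 1))⁻¹)) =
      conjGL g (up 1) := by
    rw [← hxu, ← map_inv, ← map_mul, ← map_mul, ← map_mul, ← map_mul, u_calc h5]
  rw [e, ← map_pow, up_pow_five h5, map_one]
  refine ⟨rfl, fun h => ?_⟩
  have h1 : (up 1 : Matrix.SpecialLinearGroup (Fin 2) K) = 1 := by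
    apply (conjGL g).injective
    rw [h, map_one]
  rw [← up_zero] at h1
  exact one_ne_zero (up_inj h1)

end Cfsg.Agent.H311.SLTwoFive
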