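import Mathlib

/-!
# Elements of order three of `Sp₄(3)` in a subgroup `SL₂(5)` (for S3213)
-/

set_option autoImplicit false

namespace Cfsg.Agent.H311.SpFourThree

open Module

theorem cube_eq {R : Type*} [Ring R] (h3 : (3 : R) = 0) (r : R) : (r-1)*(r-1)*(r-1) = r^3 - 1 := by
  have e : (r-1)*(r-1)*(r-1) = r^3 - (r^2+r^2+r^2) + (r+r+r) - 1 := by noncomm_ring
  have h : ∀ x : R, x + x + x = 0 := by
    intro x
    have : x + x + x = 3 * x := by
      have : (3 : R) = 1 + 1 + 1 := by norm_num
      rw [this, add_mul, add_mul, one_mul]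
    rw [this, h3, zero_mul]
  rw [e, h, h]
  abel

section Lin

variable {F V : Type*} [Field F] [AddCommGroup V] [Module F V] [FiniteDimensional F V]

/-- a unipotent isometry `1 + N` of a symplectic 4-space with `N³ = 0` has `N² = 0` -/
theorem sq_eq_zero (h2 : (2 : F) ≠ 0) (hV : finrank F V = 4) (B : V →ₗ[F] V →ₗ[F] F) (hB : ∀ v, B v v = 0)
    (hnd : ∀ v, (∀ w, B w v = 0) → v = 0) (N : V →ₗ[F] V) (hN : ∀ v, N (N (N v)) = 0)
    (hiso : ∀ v w, B (v + N v) (w + N w) = B v w) (w : V) : N (N w) = 0 := by
  have hskew : ∀ v w, B v w = - B w v := by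
    intro v w
    have h := hB (v + w)
    simp only [map_add, LinearMap.add_apply, hB] at h
    linear_combination h
  have e1 : ∀ v w, B (N v) w = - B (v + N v) (N w) := by
    intro v w
    have h := hiso v w
    simp only [map_add, LinearMap.add_apply] at h ⊢
    linear_combination h
  have e2 : ∀ v w, B (v + N v) (N (N w)) = B v (N (N w)) := by
    intro v w
    have h := hiso v (N (N w))
    rwa [hN, add_zero] at h
  have key : ∀ w, B w (N (N w)) = 0 := by
    intro w
    have h1 := e1 (N w) w
    have h2' := e1 (w + N w) (N w)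
    have h3 : N w + N (N w) = N (w + N w) := by rw [map_add]
    rw [← h3] at h2'
    have h4 : B (w + N w + (N w + N (N w))) (N (N w)) = B w (N (N w)) := by
      have := e2 (w + N w) w
      rw [h3, this, e2]
    rw [h4] at h2'
    have h5 := hskew (N (N w)) w
    have h6 : 2 * B w (N (N w)) = 0 := by linear_combination h5 - h1 + h2'
    exact (mul_eq_zero.1 h6).resolve_left h2
  by_contra hw
  -- the range of `N²` has dimension at least two
  obtain ⟨v, hv⟩ : ∃ v, B v (N (N w)) ≠ 0 := by
    by_contra hcon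
    push Not at hcon
    exact hw (hnd _ hcon)
  have hpol : B w (N (N v)) = - B v (N (N w)) := by
    have h := key (v + w)
    simp only [map_add, LinearMap.add_apply, key] at h
    linear_combination h
  have hli : LinearIndependent F ![N (N w), N (N v)] := by
    rw [LinearIndependent.pair_iff]
    intro s t hst
    have h1 : B w (s • N (N w) + t • N (N v)) = 0 := by rw [hst, map_zero]
    simp only [map_add, map_smul, key, smul_eq_mul, mul_zero, zero_add] at h1
    have ht : t = 0 := (mul_eq_zero.1 h1).resolve_right (by rw [hpol]; exact neg_ne_zero.2 hv)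
    rw [ht, zero_smul, add_zero] at hst
    exact ⟨(smul_eq_zero.1 hst).resolve_right hw, ht⟩
  set R := LinearMap.range (N ∘ₗ N) with hR
  have hle : Submodule.span F (Set.range ![N (N w), N (N v)]) ≤ R := by
    rw [Submodule.span_le]
    rintro _ ⟨i, rfl⟩
    fin_cases i
    · exact ⟨w, rfl⟩
    · exact ⟨v, rfl⟩
  have hR2 : 2 ≤ finrank F R := by
    have h1 := finrank_span_eq_card hli
    rw [Fintype.card_fin] at h1
    have h2 : (2 : ℕ) = Nat.succ (Nat.succ 0) := rfl
    rw [h2, ← h1]
    exact Submodule.finrank_mono hle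
  -- `range N²` is contained in the kernel of `N` restricted to `range N`
  let N' : LinearMap.range N →ₗ[F] V := N.domRestrict (LinearMap.range N)
  have r1 := LinearMap.finrank_range_add_finrank_ker N'
  have r2 : LinearMap.range N' = R := by
    apply le_antisymm
    · rintro _ ⟨⟨_, ⟨x, rfl⟩⟩, rfl⟩
      exact ⟨x, rfl⟩
    · rintro _ ⟨x, rfl⟩
      exact ⟨⟨N x, ⟨x, rfl⟩⟩, rfl⟩
  have r3 : finrank F R ≤ finrank F (LinearMap.ker N') := by
    have hle' : ∀ x ∈ R, x ∈ LinearMap.range N := by
      rintro _ ⟨x, rfl⟩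
      exact ⟨N x, rfl⟩
    let f : R →ₗ[F] LinearMap.ker N' :=
      { toFun := fun x => ⟨⟨x.1, hle' x.1 x.2⟩, by
          obtain ⟨x, ⟨y, rfl⟩⟩ := x
          rw [LinearMap.mem_ker]
          exact hN y⟩
        map_add' := fun x y => rfl
        map_smul' := fun c x => rfl }
    apply LinearMap.finrank_le_finrank_of_injective (f := f)
    intro x y hxy
    apply Subtype.ext
    exact congrArg (fun z : LinearMap.ker N' => (z.1.1 : V)) hxy
  rw [r2] at r1
  have r4 := LinearMap.finrank_range_add_finrank_ker N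
  have r5 : finrank F R ≤ finrank F (LinearMap.ker N) := by
    apply Submodule.finrank_mono
    rintro _ ⟨x, rfl⟩
    rw [LinearMap.mem_ker]
    exact hN x
  omega

/-- from `N² = 0` and `dim N(V) ≥ 2` -/
theorem concl (hV : finrank F V = 4) (B : V →ₗ[F] V →ₗ[F] F) (N : V →ₗ[F] V) (hN : ∀ v, N (N v) = 0)
    (hiso : ∀ v w, B (v + N v) (w + N w) = B v w) (hr : 2 ≤ finrank F (LinearMap.range N)) :
    finrank F (LinearMap.ker N) = 2 ∧ ∀ v w, N v = 0 → N w = 0 → B v w = 0 := by
  have hle : LinearMap.range N ≤ LinearMap.ker N := by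
    rintro _ ⟨x, rfl⟩
    rw [LinearMap.mem_ker]
    exact hN x
  have r1 := LinearMap.finrank_range_add_finrank_ker N
  have r2 := Submodule.finrank_mono hle
  have r3 : finrank F (LinearMap.ker N) = 2 := by omega
  refine ⟨r3, fun v w hv hw => ?_⟩
  have heq : LinearMap.range N = LinearMap.ker N := Submodule.eq_of_le_of_finrank_eq hle (by omega)
  have hw' : w ∈ LinearMap.range N := by
    rw [heq, LinearMap.mem_ker]
    exact hw
  obtain ⟨u, rfl⟩ := hw'
  have h := hiso v u
  rw [hv, add_zero, map_add] at h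
  linear_combination h

/-- over a field with three elements an element `W` of order dividing `5` with `dim (W-1)V ≤ 2` is `1` -/
theorem eq_one_of_rank [Fintype F] (hF : Fintype.card F = 3) (W : V →ₗ[F] V) (hW : W ^ 5 = 1)
    (hr : finrank F (LinearMap.range (W - 1)) ≤ 2) : W = 1 := by
  classical
  have h3 : (3 : F) = 0 := by
    have := FiniteField.cast_card_eq_zero F
    rw [hF] at this
    exact_mod_cast this
  have : Fintype V := by
    have : Finite V := Module.finite_of_finite F
    exact Fintype.ofFinite V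
  set U := LinearMap.range (W - 1) with hU
  have hmap : ∀ u ∈ U, W u ∈ U := by
    rintro _ ⟨x, rfl⟩
    refine ⟨W x, ?_⟩
    simp [LinearMap.sub_apply]
  let f : Function.End U := fun u => ⟨W u.1, hmap u.1 u.2⟩
  have hpow : ∀ n : ℕ, ∀ u : U, ((f ^ n) u : U).1 = (W ^ n) u.1 := by
    intro n
    induction n with
    | zero => intro u; rfl
    | succ n ih =>
      intro u
      rw [pow_succ, pow_succ]
      exact ih (f u)
  have hf5 : f ^ 5 ^ 1 = 1 := by
    funext u
    apply Subtype.ext
    rw [pow_one, hpow, hW]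
    rfl
  have hfact : Fact (Nat.Prime 5) := ⟨by norm_num⟩
  have hcard := Equiv.Perm.card_fixedPoints_modEq (f := f) (p := 5) (n := 1) hf5
  -- the fixed points form a submodule
  let U' : Submodule F V := U ⊓ LinearMap.ker (W - 1)
  have hcard' : Fintype.card f.fixedPoints = Fintype.card U' := by
    apply Fintype.card_congr
    refine ⟨fun u => ⟨u.1.1, u.1.2, ?_⟩, fun u => ⟨⟨u.1, u.2.1⟩, ?_⟩, fun u => rfl, fun u => rfl⟩
    · have h1 : f u.1 = u.1 := u.2
      have h2 := congrArg Subtype.val h1
      rw [SetLike.mem_coe, LinearMap.mem_ker, LinearMap.sub_apply, sub_eq_zero]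
      exact h2
    · have h1 := u.2.2
      rw [SetLike.mem_coe, LinearMap.mem_ker, LinearMap.sub_apply, sub_eq_zero] at h1
      exact Subtype.ext h1
  have hU' : U' = U := by
    apply Submodule.eq_of_le_of_finrank_eq inf_le_left
    have c1 : Fintype.card U = 3 ^ finrank F U := by rw [Module.card_eq_pow_finrank (K := F), hF]
    have c2 : Fintype.card U' = 3 ^ finrank F U' := by rw [Module.card_eq_pow_finrank (K := F), hF]
    have c3 : finrank F U' ≤ finrank F U := Submodule.finrank_mono inf_le_left
    rw [hcard', c1, c2] at hcard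
    have c4 : finrank F U ≤ 2 := hr
    generalize finrank F U = a at *
    generalize finrank F U' = b at *
    interval_cases a <;> interval_cases b <;> first | rfl | (exfalso; revert hcard; decide)
  have hsq : ∀ v, (W - 1) ((W - 1) v) = 0 := by
    intro v
    have h1 : (W - 1) v ∈ U' := by rw [hU']; exact ⟨v, rfl⟩
    exact h1.2
  have hPP : (W - 1) * (W - 1) = 0 := by
    ext v
    exact hsq v
  have e5 : W ^ 5 - 1 - 5 * (W - 1) = ((W - 1) * (W - 1)) * (W ^ 3 + 2 * W ^ 2 + 3 * W + 4) := by noncomm_ring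
  rw [hW, hPP, zero_mul, sub_self, zero_sub, neg_eq_zero] at e5
  have h5 : (5 : F) ≠ 0 := by
    intro h
    have h1 : (1 : F) = 0 := by linear_combination 2 * h3 - h
    exact one_ne_zero h1
  ext v
  have e6 : (5 : F) • (W v - v) = 0 := by
    have := congrArg (fun X : V →ₗ[F] V => X v) e5
    simp only [LinearMap.zero_apply] at this
    rw [← this]
    change (5 : F) • (W v - v) = (5 : Module.End F V) ((W - 1) v)
    have : (5 : Module.End F V) = algebraMap F (Module.End F V) 5 := (map_ofNat (algebraMap F _) 5).symm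
    rw [this]
    rfl
  have e7 := (smul_eq_zero.1 e6).resolve_left h5
  exact sub_eq_zero.1 e7

end Lin

section Grp

open Matrix

variable {F K V X : Type*} [Field F] [AddCommGroup V] [Module F V] [FiniteDimensional F V] [Group X]

theorem finrank_mul_left (A P : Module.End F V) :
    finrank F (LinearMap.range (A * P)) ≤ finrank F (LinearMap.range P) := by
  change finrank F (LinearMap.range (A.comp P)) ≤ _
  rw [LinearMap.range_comp]
  exact Submodule.finrank_map_le A _

theorem finrank_mul_right (A P : Module.End F V) :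
    finrank F (LinearMap.range (P * A)) ≤ finrank F (LinearMap.range P) := by
  apply Submodule.finrank_mono
  exact LinearMap.range_comp_le_range A P

theorem finrank_add (A P : Module.End F V) :
    finrank F (LinearMap.range (P + A)) ≤ finrank F (LinearMap.range P) + finrank F (LinearMap.range A) := by
  refine le_trans (Submodule.finrank_mono (t := LinearMap.range P ⊔ LinearMap.range A) ?_)
    (Submodule.finrank_add_le_finrank_add_finrank _ _)
  rintro _ ⟨x, rfl⟩
  exact Submodule.add_mem_sup ⟨x, rfl⟩ ⟨x, rfl⟩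

/-- if `dim (ρ x - 1)V ≤ 1` then `dim (ρ w - 1)V ≤ 2` for `w = (x s x s⁻¹)²` -/
theorem rank_le (ρ : X →* Module.End F V) (x s : X) (h : finrank F (LinearMap.range (ρ x - 1)) ≤ 1) :
    finrank F (LinearMap.range (ρ ((x * (s * x * s⁻¹)) * (x * (s * x * s⁻¹))) - 1)) ≤ 2 := by
  have h1 : finrank F (LinearMap.range (ρ (s * x * s⁻¹) - 1)) ≤ 1 := by
    have e : ρ (s * x * s⁻¹) - 1 = ρ s * ((ρ x - 1) * ρ s⁻¹) := by
      have : ρ s * ρ s⁻¹ = 1 := by rw [← map_mul, mul_inv_cancel, map_one]
      rw [map_mul, map_mul, sub_mul, mul_sub, one_mul, this, mul_assoc]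
    rw [e]
    exact (finrank_mul_left _ _).trans ((finrank_mul_right _ _).trans h)
  have h2 : finrank F (LinearMap.range (ρ (x * (s * x * s⁻¹)) - 1)) ≤ 2 := by
    have e : ρ (x * (s * x * s⁻¹)) - 1 = ρ x * (ρ (s * x * s⁻¹) - 1) + (ρ x - 1) := by
      rw [map_mul, mul_sub, mul_one]; abel
    rw [e]
    refine (finrank_add _ _).trans ?_
    have := finrank_mul_left (ρ x) (ρ (s * x * s⁻¹) - 1)
    omega
  have e : ρ ((x * (s * x * s⁻¹)) * (x * (s * x * s⁻¹))) - 1 =
      (ρ (x * (s * x * s⁻¹)) - 1) * (ρ (x * (s * x * s⁻¹)) + 1) := by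
    rw [map_mul]
    noncomm_ring
  rw [e]
  exact (finrank_mul_right _ _).trans h2

end Grp

end Cfsg.Agent.H311.SpFourThree
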